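import Mathlib

set_option autoImplicit false

/-! HIG ladder (helper85), rung CID: commutator identities modulo `γ₃`. -/

namespace Cfsg.Agent.Lib.Helper85.NatSL2

open scoped commutatorElement

theorem comm_mul_left_mod {G : Type*} [Group G] (Q : Subgroup G) [Q.Normal] {a b c : G} (ha : a ∈ Q)
    (hb : b ∈ Q) (hc : c ∈ Q) : ⁅a * b, c⁆ * (⁅a, c⁆ * ⁅b, c⁆)⁻¹ ∈ ⁅⁅Q, Q⁆, Q⁆ := by
  have hu : ⁅b, c⁆ ∈ ⁅Q, Q⁆ := Subgroup.commutator_mem_commutator hb hc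
  have hv : ⁅a, c⁆ ∈ ⁅Q, Q⁆ := Subgroup.commutator_mem_commutator ha hc
  have hvQ : ⁅a, c⁆ ∈ Q := Subgroup.commutator_le_right Q Q hv
  have e : ⁅a * b, c⁆ * (⁅a, c⁆ * ⁅b, c⁆)⁻¹ = ⁅⁅b, c⁆, a⁆⁻¹ * ⁅⁅b, c⁆, ⁅a, c⁆⁆ := by
    simp only [commutatorElement_def]
    group
  rw [e]
  exact mul_mem (inv_mem (Subgroup.commutator_mem_commutator hu ha))
    (Subgroup.commutator_mem_commutator hu hvQ)

theorem comm_mul_right_mod {G : Type*} [Group G] (Q : Subgroup G) [Q.Normal] {a b c : G} (ha : a ∈ Q)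
    (hb : b ∈ Q) (hc : c ∈ Q) : ⁅a, b * c⁆ * (⁅a, b⁆ * ⁅a, c⁆)⁻¹ ∈ ⁅⁅Q, Q⁆, Q⁆ := by
  have hv : ⁅a, c⁆ ∈ ⁅Q, Q⁆ := Subgroup.commutator_mem_commutator ha hc
  have e : ⁅a, b * c⁆ * (⁅a, b⁆ * ⁅a, c⁆)⁻¹ = ⁅a, b⁆ * ⁅⁅a, c⁆, b⁆⁻¹ * ⁅a, b⁆⁻¹ := by
    simp only [commutatorElement_def]
    group
  rw [e]
  have hN : (⁅⁅Q, Q⁆, Q⁆ : Subgroup G).Normal := inferInstance
  exact hN.conj_mem _ (inv_mem (Subgroup.commutator_mem_commutator hv hb)) _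

end Cfsg.Agent.Lib.Helper85.NatSL2
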