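import Cfsg.Agent.Lib.Helper85.Hig.Basic

set_option autoImplicit false

/-! HIG ladder (helper85), rung CONJ3: elements of order 3 of `SL₂(K)`, `K` finite of characteristic 2,
are conjugate. -/

namespace Cfsg.Agent.Lib.Helper85.NatSL2

open Matrix

theorem conj3_det {K : Type*} [Field K] (g : SL K) : g 0 0 * g 1 1 - g 0 1 * g 1 0 = 1 := by
  have := g.2
  rwa [Matrix.det_fin_two] at this

theorem conj3_trace {K : Type*} [Field K] [CharP K 2] (g : SL K) (hg : orderOf g = 3) :
    g 0 0 + g 1 1 = 1 := by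
  have h2 : (2 : K) = 0 := CharTwo.two_eq_zero
  have hdet := conj3_det g
  have h3 : g ^ 3 = 1 := by rw [← hg]; exact pow_orderOf_eq_one g
  have hne : g ≠ 1 := by
    rintro rfl
    rw [orderOf_one] at hg
    omega
  have hsq : g * g = g⁻¹ := by
    apply eq_inv_of_mul_eq_one_left
    rw [← h3, pow_succ, pow_two]
  have e00 : g 0 0 * g 0 0 + g 0 1 * g 1 0 = g 1 1 := by
    have := congrArg (fun m : SL K => m 0 0) hsq
    simpa [SL2.mul_entry, Matrix.adjugate_fin_two] using this
  have e01 : g 0 0 * g 0 1 + g 0 1 * g 1 1 = - g 0 1 := by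
    have := congrArg (fun m : SL K => m 0 1) hsq
    simpa [SL2.mul_entry, Matrix.adjugate_fin_two] using this
  have e10 : g 1 0 * g 0 0 + g 1 1 * g 1 0 = - g 1 0 := by
    have := congrArg (fun m : SL K => m 1 0) hsq
    simpa [SL2.mul_entry, Matrix.adjugate_fin_two] using this
  have e11 : g 1 0 * g 0 1 + g 1 1 * g 1 1 = g 0 0 := by
    have := congrArg (fun m : SL K => m 1 1) hsq
    simpa [SL2.mul_entry, Matrix.adjugate_fin_two] using this
  have ht : (g 0 0 + g 1 1) * (g 0 0 + g 1 1 - 1) = 0 := by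
    linear_combination e00 + e11 + 2 * hdet + h2
  rcases mul_eq_zero.1 ht with h | h
  · exfalso
    apply hne
    have hd : g 1 1 = 1 := by
      linear_combination (-1 : K) * e00 + g 0 0 * h - hdet - h2
    have ha : g 0 0 = 1 := by
      linear_combination h - hd - h2
    have hb : g 0 1 = 0 := by
      linear_combination e01 - g 0 1 * h
    have hc : g 1 0 = 0 := by
      linear_combination e10 - g 1 0 * h
    apply SL2.ext2 <;> simp [ha, hb, hc, hd]
  · linear_combination h

theorem conj3_of_vec {K : Type*} [Field K] [CharP K 2] (g : SL K) (ht : g 0 0 + g 1 1 = 1)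
    (x y : K) (hxy : x * (g 1 0 * x + g 1 1 * y) - (g 0 0 * x + g 0 1 * y) * y = 1) :
    ∃ c : SL K, c * g * c⁻¹ = SL2.up 1 * SL2.lo 1 := by
  have h2 : (2 : K) = 0 := CharTwo.two_eq_zero
  have hdet := conj3_det g
  let P : SL K := ⟨!![x, g 0 0 * x + g 0 1 * y; y, g 1 0 * x + g 1 1 * y], by
    rw [Matrix.det_fin_two_of]; exact hxy⟩
  have P00 : P 0 0 = x := rfl
  have P01 : P 0 1 = g 0 0 * x + g 0 1 * y := rfl
  have P10 : P 1 0 = y := rfl
  have P11 : P 1 1 = g 1 0 * x + g 1 1 * y := rfl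
  refine ⟨P⁻¹, ?_⟩
  have key : g * P = P * (SL2.up 1 * SL2.lo 1) := by
    apply SL2.ext2 <;>
      simp only [SL2.mul_entry, SL2.lo_00, SL2.lo_01, SL2.lo_10, SL2.lo_11, SL2.up_00, SL2.up_01,
        SL2.up_10, SL2.up_11, P00, P01, P10, P11]
    · linear_combination (-x) * h2
    · linear_combination (g 0 0 * x + g 0 1 * y) * ht - x * hdet - x * h2
    · linear_combination (-y) * h2
    · linear_combination (g 1 0 * x + g 1 1 * y) * ht - y * hdet - y * h2
  rw [inv_inv, mul_assoc, key]
  group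

theorem exists_conj_order_three {K : Type*} [Field K] [Finite K] [CharP K 2] (g : SL K)
    (hg : orderOf g = 3) : ∃ c : SL K, c * g * c⁻¹ = SL2.up 1 * SL2.lo 1 := by
  have h2 : (2 : K) = 0 := CharTwo.two_eq_zero
  have ht := conj3_trace g hg
  have hsq : ∀ a : K, ∃ r : K, a = r * r := fun a =>
    FiniteField.isSquare_of_char_two (ringChar.eq K 2) a
  by_cases hc : g 1 0 = 0
  · by_cases hb : g 0 1 = 0
    · apply conj3_of_vec g ht 1 1
      rw [hb, hc]
      linear_combination ht - g 0 0 * h2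
    · obtain ⟨r, hr⟩ := hsq (g 0 1)⁻¹
      apply conj3_of_vec g ht 0 r
      have : g 0 1 * (r * r) = 1 := by rw [← hr, mul_inv_cancel₀ hb]
      linear_combination this - g 0 1 * r * r * h2
  · obtain ⟨r, hr⟩ := hsq (g 1 0)⁻¹
    apply conj3_of_vec g ht r 0
    have : g 1 0 * (r * r) = 1 := by rw [← hr, mul_inv_cancel₀ hc]
    linear_combination this

end Cfsg.Agent.Lib.Helper85.NatSL2
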