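import Mathlib

set_option autoImplicit false

/-! HIG ladder (helper85), rung FPF. -/

namespace Cfsg.Agent.Lib.Helper85.NatSL2

theorem fpf_section {G : Type*} [Group G] [Finite G] (X Y : Subgroup G) [X.Normal] [Y.Normal]
    (hYX : Y ≤ X) (x : G) (hfpf : ∀ q ∈ X, x * q * x⁻¹ = q → q = 1) :
    ∀ q ∈ X, x * q * x⁻¹ * q⁻¹ ∈ Y → q ∈ Y := by
  have hinj : ∀ a ∈ X, ∀ b ∈ X, x * a * x⁻¹ * a⁻¹ = x * b * x⁻¹ * b⁻¹ → a = b := by
    intro a ha b hb h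
    have h1 : b⁻¹ * a = 1 := by
      apply hfpf _ (mul_mem (inv_mem hb) ha)
      calc x * (b⁻¹ * a) * x⁻¹ = (x * b * x⁻¹)⁻¹ * (x * a * x⁻¹ * a⁻¹) * a := by group
        _ = (x * b * x⁻¹)⁻¹ * (x * b * x⁻¹ * b⁻¹) * a := by rw [h]
        _ = b⁻¹ * a := by group
    exact (inv_mul_eq_one.1 h1).symm
  let f : Y → Y := fun y => ⟨x * y * x⁻¹ * (y : G)⁻¹,
    mul_mem (‹Y.Normal›.conj_mem _ y.2 x) (inv_mem y.2)⟩
  have hf : Function.Injective f := by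
    intro a b h
    exact Subtype.ext (hinj a (hYX a.2) b (hYX b.2) (congrArg Subtype.val h))
  intro q hq hqY
  obtain ⟨y, hy⟩ := (Finite.injective_iff_surjective.1 hf) ⟨_, hqY⟩
  have := hinj y (hYX y.2) q hq (congrArg Subtype.val hy)
  rw [← this]
  exact y.2

end Cfsg.Agent.Lib.Helper85.NatSL2
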