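import Cfsg.Agent.Lib.Helper85.Hig.Basic

set_option autoImplicit false

/-! HIG ladder (helper85), rung ORD. -/

namespace Cfsg.Agent.Lib.Helper85.NatSL2

open Matrix

theorem ord_inv {F : Type*} [Field F] [CharP F 2] (s : F) :
    (SL2.lo s⁻¹ * SL2.up s) * (SL2.up s * SL2.lo s⁻¹) = 1 := by
  have e : (SL2.lo s⁻¹ * SL2.up s) * (SL2.up s * SL2.lo s⁻¹)
      = SL2.lo s⁻¹ * (SL2.up s * SL2.up s) * SL2.lo s⁻¹ := by group
  rw [e, SL2.up_add, CharTwo.add_self_eq_zero, SL2.up_zero, mul_one, SL2.lo_add,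
    CharTwo.add_self_eq_zero, SL2.lo_zero]

theorem ord_sq {F : Type*} [Field F] [CharP F 2] {s : F} (hs : s ≠ 0) :
    (SL2.up s * SL2.lo s⁻¹) * (SL2.up s * SL2.lo s⁻¹) = SL2.lo s⁻¹ * SL2.up s := by
  have h2 : (1 : F) + 1 = 0 := CharTwo.add_self_eq_zero 1
  apply SL2.ext2 <;>
    simp only [SL2.mul_entry, SL2.lo_00, SL2.lo_01, SL2.lo_10, SL2.lo_11, SL2.up_00, SL2.up_01,
      SL2.up_10, SL2.up_11, mul_inv_cancel₀ hs, inv_mul_cancel₀ hs, h2, mul_one, one_mul, mul_zero,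
      zero_mul, add_zero, zero_add]

theorem ord3_of_fix {F : Type*} [Field F] [Finite F] [CharP F 2] {V : Type*} [AddCommGroup V]
    [DistribMulAction (SL F) V]
    (hfix : ∀ v : V, (SL2.up (1 : F) * SL2.lo 1) • v = v → v = 0) : Ord3 F V := by
  intro s hs v
  obtain ⟨r, hr⟩ := FiniteField.isSquare_of_char_two (ringChar.eq F 2) s
  have hr0 : r ≠ 0 := by
    rintro rfl
    apply hs
    rw [hr, mul_zero]
  have hx : hh r * SL2.up 1 * (hh r)⁻¹ = SL2.up s := by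
    have := (SL2.stdSt2 F).h_conj_x hr0 1
    rw [mul_one, pow_two, ← hr] at this
    exact this
  have hy : hh r * SL2.lo 1 * (hh r)⁻¹ = SL2.lo s⁻¹ := by
    have := (SL2.stdSt2 F).h_conj_y hr0 1
    rw [mul_one, pow_two, ← mul_inv, ← hr] at this
    exact this
  have hg : (hh r)⁻¹ * (SL2.up s * SL2.lo s⁻¹) = (SL2.up 1 * SL2.lo 1) * (hh r)⁻¹ := by
    rw [← hx, ← hy]; group
  rw [← mul_smul, ← mul_smul]
  obtain ⟨g, hgdef⟩ : ∃ g : SL F, g = SL2.up s * SL2.lo s⁻¹ := ⟨_, rfl⟩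
  obtain ⟨g', hg'def⟩ : ∃ g' : SL F, g' = SL2.lo s⁻¹ * SL2.up s := ⟨_, rfl⟩
  have h1 : g' * g = 1 := by rw [hgdef, hg'def]; exact ord_inv s
  have h2 : g * g = g' := by rw [hgdef, hg'def]; exact ord_sq hs
  have h3 : g * g' = 1 := by
    have : g' = g⁻¹ := eq_inv_of_mul_eq_one_left h1
    rw [this, mul_inv_cancel]
  rw [← hgdef] at hg ⊢
  rw [← hg'def]
  have hw : g • (v + g • v + g' • v) = v + g • v + g' • v := by
    rw [smul_add, smul_add, ← mul_smul, ← mul_smul, h2, h3, one_smul]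
    abel
  have h4 : (hh r)⁻¹ • (v + g • v + g' • v) = 0 := by
    apply hfix
    rw [← mul_smul, ← hg, mul_smul, hw]
  have := congrArg (fun x => hh r • x) h4
  simpa using this

end Cfsg.Agent.Lib.Helper85.NatSL2
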