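import Cfsg.Agent.Lib.Helper85.Hig.Basic

set_option autoImplicit false

/-! HIG ladder (helper85), rung PAIR: equivariant biadditive pairings between `Nice` modules vanish. -/

namespace Cfsg.Agent.Lib.Helper85.NatSL2

open Matrix

section

variable {F : Type*} [Field F] {V : Type*} [AddCommGroup V] [DistribMulAction (SL F) V]

theorem pair_hh_mem {s : F} (hs : s ≠ 0) {v : V} (hv : v ∈ fixUp F V) : hh s • v ∈ fixUp F V := by
  rw [hh_def, mul_smul]
  exact ww_smul_fixLo hs (ww_smul_fixUp neg_one_ne hv)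

theorem pair_hh_inv {s : F} (hs : s ≠ 0) (v : V) : hh s • hh s⁻¹ • v = v := by
  rw [← mul_smul, hh_mul hs (inv_ne_zero hs), mul_inv_cancel₀ hs, hh_one, one_smul]

theorem pair_ww_one (v : V) : ww (1 : F) • ww (-1 : F) • v = v := by
  rw [← mul_smul, ww_neg, mul_inv_cancel, one_smul]

end

theorem pairing_zero {F : Type*} [Field F] (hF : ∃ s : F, s ≠ 0 ∧ s ≠ 1)
    {M₁ : Type*} [AddCommGroup M₁] [DistribMulAction (SL F) M₁]
    {M₃ : Type*} [AddCommGroup M₃] [DistribMulAction (SL F) M₃]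
    (h1 : Nice F M₁) (h3 : Nice F M₃) (f : M₁ → M₁ → M₃)
    (fl : ∀ a b c, f (a + b) c = f a c + f b c) (fr : ∀ a b c, f a (b + c) = f a b + f a c)
    (fe : ∀ (g : SL F) a b, f (g • a) (g • b) = g • f a b) : ∀ a b, f a b = 0 := by
  have fsubr : ∀ a b c, f a (b - c) = f a b - f a c := by
    intro a b c
    have := fr a (b - c) c
    rw [sub_add_cancel] at this
    rw [this]; abel
  -- Step A
  have stepA : ∀ y ∈ fixLo F M₁, ∀ z ∈ fixUp F M₁, ∃ p' : M₃, ∀ s : F, s ≠ 0 →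
      f (ww s • y) z = ww s • p' := by
    intro y hy z hz
    obtain ⟨p, hp, p', hp', e⟩ := h3.dec (f y z)
    refine ⟨p', fun s hs => ?_⟩
    have e1 : SL2.up s • y = y + ww s • y := by rw [h1.hLo hs hy]; abel
    have e2 := fe (SL2.up s) y z
    rw [hz s, e1, fl, e, smul_add, hp s] at e2
    rw [h3.hLo hs hp']
    have : f (ww s • y) z = (p + p' + f (ww s • y) z) - (p + p') := by abel
    rw [this, e2]; abel
  -- Step B
  have stepB : ∀ y₀ ∈ fixUp F M₁, ∀ z ∈ fixUp F M₁, ∀ s : F, s ≠ 0 →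
      f (hh s • y₀) z = hh s • f y₀ z := by
    intro y₀ hy₀ z hz s hs
    obtain ⟨p', hp'⟩ := stepA _ (ww_smul_fixUp neg_one_ne hy₀) z hz
    have a1 := hp' 1 one_ne_zero
    rw [pair_ww_one] at a1
    have a2 := hp' s hs
    rw [← mul_smul, ← hh_def] at a2
    rw [a2, a1, hh_def, mul_smul, ww_neg, inv_smul_smul]
  -- Step C
  have stepC : ∀ y₁ ∈ fixUp F M₁, ∀ z ∈ fixUp F M₁, ∀ s : F, s ≠ 0 →
      f y₁ (hh s • z - z) = 0 := by
    intro y₁ hy₁ z hz s hs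
    have b1 := stepB _ (pair_hh_mem (inv_ne_zero hs) hy₁) z hz s hs
    rw [← fe, pair_hh_inv hs] at b1
    rw [fsubr, ← b1, sub_self]
  -- Step D
  have stepD : ∀ y₁ ∈ fixUp F M₁, ∀ z ∈ fixUp F M₁, f y₁ z = 0 := by
    intro y₁ hy₁ z' hz'
    obtain ⟨s, hs0, hs1⟩ := hF
    have hs : s - 1 ≠ 0 := sub_ne_zero.2 hs1
    have hz : hh (s - 1)⁻¹ • z' ∈ fixUp F M₁ := pair_hh_mem (inv_ne_zero hs) hz'
    have key : ∀ z ∈ fixUp F M₁, hh s • z - z = hh (s - 1) • z := by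
      intro z hz
      have c1 := sc_add_left h1.quad (s - 1) 1 z
      rw [sub_add_cancel, sc_eq_hh h1.hLo hs0 hz, sc_one h1.hLo hz, sc_eq_hh h1.hLo hs hz] at c1
      rw [c1]; abel
    have c2 := stepC y₁ hy₁ _ hz s hs0
    rw [key _ hz, pair_hh_inv hs] at c2
    exact c2
  -- Step E
  have stepE : ∀ y ∈ fixLo F M₁, ∀ y' ∈ fixLo F M₁, f y y' = 0 := by
    intro y hy y' hy'
    have := fe (ww 1) y y'
    rw [stepD _ (ww_smul_fixLo one_ne_zero hy) _ (ww_smul_fixLo one_ne_zero hy')] at this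
    exact (smul_eq_zero_iff_eq _).1 this.symm
  have upy : ∀ y ∈ fixLo F M₁, ∀ x : F, ∃ u ∈ fixUp F M₁, SL2.up x • y = y + u := by
    intro y hy x
    by_cases hx : x = 0
    · exact ⟨0, zero_mem _, by rw [hx, SL2.up_zero, one_smul, add_zero]⟩
    · exact ⟨ww x • y, ww_smul_fixLo hx hy, by rw [h1.hLo hx hy]; abel⟩
  have loz : ∀ z ∈ fixUp F M₁, ∀ r : F, ∃ u ∈ fixLo F M₁, SL2.lo r • z = z + u := by
    intro z hz r
    by_cases hr : r = 0
    · exact ⟨0, zero_mem _, by rw [hr, SL2.lo_zero, one_smul, add_zero]⟩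
    · have ht : -r⁻¹ ≠ 0 := neg_ne_zero.2 (inv_ne_zero hr)
      refine ⟨ww (-r⁻¹) • z, ww_smul_fixUp ht hz, ?_⟩
      have e : -(-r⁻¹)⁻¹ = r := by rw [inv_neg, inv_inv, neg_neg]
      rw [h1.hUp ht hz, e]; abel
  -- Step F
  have stepF : ∀ y ∈ fixLo F M₁, ∀ z ∈ fixUp F M₁, f y z = 0 := by
    intro y hy z hz
    apply h3.int
    · intro x
      obtain ⟨u, hu, e⟩ := upy y hy x
      rw [← fe, hz x, e, fl, stepD u hu z hz, add_zero]
    · intro r
      obtain ⟨u, hu, e⟩ := loz z hz r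
      rw [← fe, hy r, e, fr, stepE y hy u hu, add_zero]
  have stepF' : ∀ z ∈ fixUp F M₁, ∀ y ∈ fixLo F M₁, f z y = 0 := by
    intro z hz y hy
    apply h3.int
    · intro x
      obtain ⟨u, hu, e⟩ := upy y hy x
      rw [← fe, hz x, e, fr, stepD z hz u hu, add_zero]
    · intro r
      obtain ⟨u, hu, e⟩ := loz z hz r
      rw [← fe, hy r, e, fl, stepE u hu y hy, add_zero]
  intro a b
  obtain ⟨a0, ha0, a1, ha1, rfl⟩ := h1.dec a
  obtain ⟨b0, hb0, b1, hb1, rfl⟩ := h1.dec b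
  rw [fl, fr, fr, stepD a0 ha0 b0 hb0, stepF' a0 ha0 b1 hb1, stepF a1 ha1 b0 hb0,
    stepE a1 ha1 b1 hb1]
  simp

end Cfsg.Agent.Lib.Helper85.NatSL2
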