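import Cfsg.Agent.Lib.Helper85.Hig.Basic

set_option autoImplicit false

/-! HIG ladder (helper85), rung SEC: a section `X / Y` as an `SL₂(K)`-module. -/

namespace Cfsg.Agent.Lib.Helper85.NatSL2

open Matrix
open scoped commutatorElement

universe u v

section

variable {G : Type u} [Group G] (X Y : Subgroup G) [X.Normal] [Y.Normal]

/-- conjugation by `g` on `X / Y`. -/
def secAct (g : G) : (X ⧸ Y.subgroupOf X) →* (X ⧸ Y.subgroupOf X) :=
  QuotientGroup.map _ _ (MulAut.conjNormal g : MulAut X).toMonoidHom (by
    intro a ha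
    rw [Subgroup.mem_comap, Subgroup.mem_subgroupOf]
    rw [Subgroup.mem_subgroupOf] at ha
    have : (((MulAut.conjNormal g : MulAut X).toMonoidHom a : X) : G) = g * a * g⁻¹ :=
      MulAut.conjNormal_apply g a
    rw [this]
    exact ‹Y.Normal›.conj_mem _ ha g)

theorem secAct_mk (g : G) (a : X) :
    secAct X Y g (QuotientGroup.mk a) = QuotientGroup.mk (MulAut.conjNormal g a) := rfl

theorem secAct_eq_mk (g : G) (a b : X) (h : (b : G) = g * a * g⁻¹) :
    secAct X Y g (QuotientGroup.mk a) = QuotientGroup.mk b := by
  rw [secAct_mk]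
  congr 1
  apply Subtype.ext
  rw [MulAut.conjNormal_apply, h]

theorem secAct_one (m : X ⧸ Y.subgroupOf X) : secAct X Y 1 m = m := by
  induction m using QuotientGroup.induction_on with
  | H a => rw [secAct_mk, map_one]; rfl

theorem secAct_mul (g h : G) (m : X ⧸ Y.subgroupOf X) :
    secAct X Y (g * h) m = secAct X Y g (secAct X Y h m) := by
  induction m using QuotientGroup.induction_on with
  | H a => rw [secAct_mk, secAct_mk, secAct_mk, map_mul]; rfl

theorem secAct_ker {Z : Subgroup G} (hXZ : ⁅X, Z⁆ ≤ Y) {k : G} (hk : k ∈ Z)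
    (m : X ⧸ Y.subgroupOf X) : secAct X Y k m = m := by
  induction m using QuotientGroup.induction_on with
  | H a =>
    rw [secAct_mk, QuotientGroup.eq, Subgroup.mem_subgroupOf]
    apply hXZ
    have e : (((MulAut.conjNormal k a)⁻¹ * a : X) : G) = ⁅(a : G)⁻¹, k⁆⁻¹ := by
      rw [Subgroup.coe_mul, Subgroup.coe_inv, MulAut.conjNormal_apply, commutatorElement_def]
      group
    rw [e]
    exact inv_mem (Subgroup.commutator_mem_commutator (inv_mem a.2) hk)

end

theorem exists_section_module {G : Type u} [Group G] {K : Type v} [Field K] (π : G →* SL K)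
    (hπ : Function.Surjective π) (X Y : Subgroup G) [X.Normal] [Y.Normal] (hYX : Y ≤ X)
    (hXX : ⁅X, X⁆ ≤ Y) (hXQ : ⁅X, π.ker⁆ ≤ Y) :
    ∃ (M : Type u) (_ : AddCommGroup M) (_ : DistribMulAction (SL K) M) (φ : X → M),
      Function.Surjective φ ∧ (∀ a b, φ (a * b) = φ a + φ b) ∧ (∀ a, φ a = 0 ↔ (a : G) ∈ Y) ∧
      ∀ (g : G) (a b : X), (b : G) = g * a * g⁻¹ → π g • φ a = φ b := by
  classical
  have hcomm : ∀ a b : X ⧸ Y.subgroupOf X, a * b = b * a := by
    intro a b
    induction a using QuotientGroup.induction_on with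
    | H a =>
      induction b using QuotientGroup.induction_on with
      | H b =>
        rw [← QuotientGroup.mk_mul, ← QuotientGroup.mk_mul, QuotientGroup.eq,
          Subgroup.mem_subgroupOf]
        apply hXX
        have e : (((a * b)⁻¹ * (b * a) : X) : G) = ⁅(b : G)⁻¹, (a : G)⁻¹⁆ := by
          simp only [Subgroup.coe_mul, Subgroup.coe_inv, commutatorElement_def]
          group
        rw [e]
        exact Subgroup.commutator_mem_commutator (inv_mem b.2) (inv_mem a.2)
  have hcongr : ∀ g g' : G, π g = π g' → ∀ m, secAct X Y g m = secAct X Y g' m := by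
    intro g g' h m
    have hk : g'⁻¹ * g ∈ π.ker := by
      rw [MonoidHom.mem_ker, map_mul, map_inv, h, inv_mul_cancel]
    have e : g = g' * (g'⁻¹ * g) := by group
    rw [e, secAct_mul, secAct_ker X Y hXQ hk]
  let iC : CommGroup (X ⧸ Y.subgroupOf X) :=
    { (inferInstance : Group (X ⧸ Y.subgroupOf X)) with mul_comm := hcomm }
  let iA : AddCommGroup (Additive (X ⧸ Y.subgroupOf X)) := Additive.addCommGroup
  let iD : DistribMulAction (SL K) (Additive (X ⧸ Y.subgroupOf X)) :=
    { smul := fun s m => Additive.ofMul (secAct X Y (Function.surjInv hπ s) (Additive.toMul m))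
      one_smul := by
        intro m
        show Additive.ofMul (secAct X Y (Function.surjInv hπ 1) (Additive.toMul m)) = m
        rw [hcongr _ 1 (by rw [Function.surjInv_eq hπ, map_one]), secAct_one]
        rfl
      mul_smul := by
        intro s t m
        show Additive.ofMul (secAct X Y (Function.surjInv hπ (s * t)) (Additive.toMul m))
          = Additive.ofMul (secAct X Y (Function.surjInv hπ s)
              (secAct X Y (Function.surjInv hπ t) (Additive.toMul m)))
        rw [hcongr _ (Function.surjInv hπ s * Function.surjInv hπ t)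
          (by rw [map_mul, Function.surjInv_eq hπ, Function.surjInv_eq hπ, Function.surjInv_eq hπ]),
          secAct_mul]
      smul_zero := by
        intro s
        show Additive.ofMul (secAct X Y (Function.surjInv hπ s) 1) = 0
        rw [map_one]
        rfl
      smul_add := by
        intro s m m'
        show Additive.ofMul (secAct X Y (Function.surjInv hπ s)
            (Additive.toMul m * Additive.toMul m')) = _
        rw [map_mul]
        rfl }
  refine ⟨Additive (X ⧸ Y.subgroupOf X), iA, iD, fun a => Additive.ofMul (QuotientGroup.mk a),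
    ?_, ?_, ?_, ?_⟩
  · intro m
    obtain ⟨a, ha⟩ := QuotientGroup.mk_surjective (Additive.toMul m)
    exact ⟨a, congrArg Additive.ofMul ha⟩
  · intro a b
    rfl
  · intro a
    show (QuotientGroup.mk a : X ⧸ Y.subgroupOf X) = 1 ↔ _
    rw [QuotientGroup.eq_one_iff, Subgroup.mem_subgroupOf]
  · intro g a b h
    show Additive.ofMul (secAct X Y (Function.surjInv hπ (π g)) (QuotientGroup.mk a))
      = Additive.ofMul (QuotientGroup.mk b)
    rw [hcongr _ g (Function.surjInv_eq hπ _), secAct_eq_mk X Y g a b h]

end Cfsg.Agent.Lib.Helper85.NatSL2
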