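import Mathlib

set_option autoImplicit false

/-! HIG ladder (helper85), rung FE: a functional equation in characteristic 2. -/

namespace Cfsg.Agent.Lib.Helper85.NatSL2

theorem fe_linear {F : Type*} [Field F] [CharP F 2] (hsq : ∀ a : F, ∃ b : F, b ^ 2 = a)
    {W : Type*} [AddCommGroup W] [Module F W]
    (γ : F → W) (hadd : ∀ a b, γ (a + b) = γ a + γ b) (ζ : W)
    (h : ∀ s t : F, s ≠ 0 → t ≠ 0 →
      s • γ (t / s ^ 2) + t • γ (1 / s) + t • γ (s / t ^ 2) + s • γ (1 / t) = (s + t) • ζ) :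
    ∀ r, γ r = r • γ 1 := by
  have h2 : (2 : F) = 0 := CharTwo.two_eq_zero
  have hw : ∀ x : W, x + x = 0 := by
    intro x
    rw [← two_smul F x, h2, zero_smul]
  obtain ⟨δ, hδdef⟩ : ∃ δ : F → W, ∀ r, δ r = γ r + r • γ 1 := ⟨fun r => γ r + r • γ 1, fun _ => rfl⟩
  have hδadd : ∀ a b, δ (a + b) = δ a + δ b := by
    intro a b
    rw [hδdef, hδdef, hδdef, hadd, add_smul]
    abel
  have hδ1 : δ 1 = 0 := by
    rw [hδdef, one_smul]
    exact hw _
  have hδ0 : δ 0 = 0 := by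
    have := hδadd 0 0
    rw [add_zero] at this
    exact left_eq_add.1 this
  have hδ : ∀ s t : F, s ≠ 0 → t ≠ 0 →
      s • δ (t / s ^ 2) + t • δ (1 / s) + t • δ (s / t ^ 2) + s • δ (1 / t) = (s + t) • ζ := by
    intro s t hs ht
    have e1 : s * (t / s ^ 2) = t / s := by field_simp
    have e2 : t * (1 / s) = t / s := by ring
    have e3 : t * (s / t ^ 2) = s / t := by field_simp
    have e4 : s * (1 / t) = s / t := by ring
    simp only [hδdef, smul_add, smul_smul, e1, e2, e3, e4]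
    calc _ = (s • γ (t / s ^ 2) + t • γ (1 / s) + t • γ (s / t ^ 2) + s • γ (1 / t))
          + ((t / s) • γ 1 + (t / s) • γ 1) + ((s / t) • γ 1 + (s / t) • γ 1) := by abel
      _ = _ := by rw [hw, hw, add_zero, add_zero, h s t hs ht]
  -- (G1)
  have G1 : ∀ s : F, s ≠ 0 → s • δ ((s ^ 2)⁻¹) + δ s⁻¹ + δ s = (s + 1) • ζ := by
    intro s hs
    have := hδ s 1 hs one_ne_zero
    simpa only [one_div, one_pow, div_one, one_smul, inv_one, hδ1, smul_zero, add_zero] using this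
  -- (G2)
  have G2 : ∀ s : F, s ≠ 0 → δ (s ^ 2) + s • δ s + s • δ s⁻¹ = (1 + s) • ζ := by
    intro s hs
    have h1 := G1 s⁻¹ (inv_ne_zero hs)
    rw [inv_pow, inv_inv, inv_inv] at h1
    have h3 := congrArg (fun x => s • x) h1
    simp only [smul_add, smul_smul, mul_inv_cancel₀ hs, one_smul, mul_add, mul_one] at h3
    exact h3
  -- (G3)
  have G3 : ∀ σ : F, σ ≠ 0 → δ σ + σ • δ σ⁻¹ = (1 + σ) • ζ := by
    intro σ hσ
    obtain ⟨s, rfl⟩ := hsq σ
    have hs : s ≠ 0 := by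
      rintro rfl
      simp at hσ
    have g1 := G1 s hs
    have g2 := G2 s hs
    have h3 := congrArg (fun x => s • x) g1
    simp only [smul_add, smul_smul] at h3
    have e : δ (s ^ 2) + s ^ 2 • δ (s ^ 2)⁻¹
        = (s * s) • δ (s ^ 2)⁻¹ + s • δ s⁻¹ + s • δ s + (δ (s ^ 2) + s • δ s + s • δ s⁻¹)
          - (s • δ s + s • δ s) - (s • δ s⁻¹ + s • δ s⁻¹) := by
      rw [pow_two]; abel
    rw [e, h3, g2, hw, hw, sub_zero, sub_zero, ← add_smul]
    have e2 : (s * (s + 1) + (1 + s)) • ζ = (1 + s ^ 2) • ζ + (s • ζ + s • ζ) := by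
      rw [← add_smul, ← add_smul]; congr 1; ring
    rw [e2, hw, add_zero]
  -- (G4)
  have G4 : ∀ s : F, δ (s ^ 2) = (1 + s) • δ s := by
    intro s
    by_cases hs : s = 0
    · rw [hs]; simp [hδ0]
    have g2 := G2 s hs
    have g3 := G3 s hs
    have e : δ (s ^ 2) = (δ (s ^ 2) + s • δ s + s • δ s⁻¹) - (δ s + s • δ s⁻¹) + (1 + s) • δ s
        - (s • δ s + s • δ s) := by
      rw [add_smul, one_smul]; abel
    rw [e, g2, g3, hw, sub_self, zero_add, sub_zero]
  have hzero : ∀ s : F, δ s = 0 := by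
    intro s
    have g := G4 (s + 1)
    have e1 : (s + 1) ^ 2 = s ^ 2 + 1 := by
      have : (s + 1) ^ 2 = s ^ 2 + 1 + 2 * s := by ring
      rw [this, h2, zero_mul, add_zero]
    have e2 : (1 + (s + 1) : F) = s := by
      have : (1 + (s + 1) : F) = s + 2 := by ring
      rw [this, h2, add_zero]
    rw [e1, e2, hδadd, hδadd, hδ1, add_zero, add_zero, G4 s, add_smul, one_smul] at g
    exact add_eq_right.1 g
  intro r
  have := hzero r
  rw [hδdef] at this
  have e : γ r = (γ r + r • γ 1) + r • γ 1 - (r • γ 1 + r • γ 1) := by abel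
  rw [e, this, hw, zero_add, sub_zero]

end Cfsg.Agent.Lib.Helper85.NatSL2
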